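import Cfsg.Agent.Lib.M24X.TACent

/-!
# The centraliser of an involution of `M24` fixing an octad: the statement
-/

set_option autoImplicit false
set_option maxRecDepth 100000
set_option linter.unusedSimpArgs false
set_option linter.unusedVariables false
set_option linter.unusedSectionVars false
set_option linter.style.haveILetI false

namespace Cfsg.Agent.Lib.M24X.TA

open Cfsg Cfsg.Agent.Lib.Golay Cfsg.Agent.Lib.TwoFusion Cfsg.Agent.Lib.ThreeTrans.LGL
open Matrix

/-! ### The isomorphism type of the complement -/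

/-- The three-dimensional space. -/
abbrev X3 := Fin 3 → ZMod 2

/-- The code of a vector. -/
def code (x : X3) : ℕ := (x 0).val + 2 * (x 1).val + 4 * (x 2).val

/-- The vector of a code. -/
def vec (n : ℕ) : X3 := ![((n : ℕ) : ZMod 2), ((n / 2 : ℕ) : ZMod 2), ((n / 4 : ℕ) : ZMod 2)]

theorem vec_code : ∀ x : X3, vec (code x) = x := by decide +kernel

theorem code_lt : ∀ x : X3, code x < 8 := by decide +kernel

theorem code_vec : ∀ n : Fin 8, code (vec n) = n := by decide +kernel

theorem vec_xor : ∀ a b : Fin 8, vec (Nat.xor a b) = vec a + vec b := by decide +kernel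

theorem code_add : ∀ x y : X3, code (x + y) = Nat.xor (code x) (code y) := by decide +kernel

theorem chk1 : taK.all (fun l => (List.range 8).all fun a => (List.range 8).all fun b =>
    Nat.beq (lk taC (lk l (lk taD (Nat.xor a b)))) (Nat.xor (lk taC (lk l (lk taD a))) (lk taC (lk l (lk taD b))))) = true := by
  decide +kernel

theorem chk2 : taK.all (fun l => (List.range 8).all fun a => Nat.blt (lk taC (lk l (lk taD a))) 8 &&
    Nat.beq (lk taD (lk taC (lk l (lk taD a)))) (lk l (lk taD a))) = true := by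
  decide +kernel

theorem chk3 : (List.range 8).all (fun a => Nat.beq (lk taC (lk taD a)) a && Nat.blt (lk taD a) 24) = true := by
  decide +kernel

theorem chk4 : taK.all (fun l => !((List.range 8).all fun a => Nat.beq (lk taC (lk l (lk taD a))) a) || (l == idL)) = true := by
  decide +kernel

theorem taD_lt {a : ℕ} (ha : a < 8) : lk taD a < 24 := by
  have := List.all_eq_true.mp chk3 a (List.mem_range.2 ha)
  simp only [Bool.and_eq_true, Nat.blt_eq] at this
  exact this.2

theorem taC_taD {a : ℕ} (ha : a < 8) : lk taC (lk taD a) = a := by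
  have := List.all_eq_true.mp chk3 a (List.mem_range.2 ha)
  simp only [Bool.and_eq_true, Nat.beq_eq] at this
  exact this.1

/-- The action on the space. -/
noncomputable def act (g : Pm) (x : X3) : X3 := vec (lk taC (idx (g (pt (lk taD (code x))))))

theorem act_perm {l : List ℕ} (hl : isPerm l = true) (x : X3) :
    act (perm l) x = vec (lk taC (lk l (lk taD (code x)))) := by
  have h1 := taD_lt (code_lt x)
  unfold act
  rw [perm_pt hl h1, idx_pt (isPerm_lt hl h1)]

theorem act_one (x : X3) : act 1 x = x := by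
  have h1 := taD_lt (code_lt x)
  unfold act
  rw [Equiv.Perm.one_apply, idx_pt h1, taC_taD (code_lt x), vec_code]

theorem act_mul {g h : Pm} (hg : g ∈ K0) (hh : h ∈ K0) (x : X3) : act (g * h) x = act g (act h x) := by
  obtain ⟨l, hl, rfl⟩ := hg
  obtain ⟨m, hm, rfl⟩ := hh
  have pl := okL_perm taK_ok hl
  have pm := okL_perm taK_ok hm
  rw [← perm_mulL pl pm, act_perm (isPerm_mulL pl pm), act_perm pm, act_perm pl]
  have hchk := List.all_eq_true.mp (List.all_eq_true.mp chk2 m hm) (code x) (List.mem_range.2 (code_lt x))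
  simp only [Bool.and_eq_true, Nat.blt_eq, Nat.beq_eq] at hchk
  obtain ⟨h1, h2⟩ := hchk
  have h3 := code_vec ⟨_, h1⟩
  simp only at h3
  rw [h3, h2]
  have h4 : lk (mulL l m) (lk taD (code x)) = lk l (lk m (lk taD (code x))) :=
    lk_mulL (by rw [isPerm_length pm]; exact taD_lt (code_lt x))
  rw [h4]

theorem act_add {g : Pm} (hg : g ∈ K0) (x y : X3) : act g (x + y) = act g x + act g y := by
  obtain ⟨l, hl, rfl⟩ := hg
  have pl := okL_perm taK_ok hl
  rw [act_perm pl, act_perm pl, act_perm pl, code_add]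
  have hchk := List.all_eq_true.mp (List.all_eq_true.mp (List.all_eq_true.mp chk1 l hl) (code x)
    (List.mem_range.2 (code_lt x))) (code y) (List.mem_range.2 (code_lt y))
  simp only [Nat.beq_eq] at hchk
  rw [hchk]
  have h1 := List.all_eq_true.mp (List.all_eq_true.mp chk2 l hl) (code x) (List.mem_range.2 (code_lt x))
  have h2 := List.all_eq_true.mp (List.all_eq_true.mp chk2 l hl) (code y) (List.mem_range.2 (code_lt y))
  simp only [Bool.and_eq_true, Nat.blt_eq, Nat.beq_eq] at h1 h2
  exact vec_xor ⟨_, h1.1⟩ ⟨_, h2.1⟩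

theorem z2_cases' (x : ZMod 2) : x = 0 ∨ x = 1 := by
  revert x; decide

theorem x3_add_self (x : X3) : x + x = 0 := by
  funext i
  have : ∀ a : ZMod 2, a + a = 0 := by decide
  exact this _

/-- The homomorphism to the linear group. -/
noncomputable def theta : ↥K0 →* (X3 ≃ₗ[ZMod 2] X3) :=
  MonoidHom.mk' (fun g =>
    { toFun := act g.1
      invFun := act g.1⁻¹
      map_add' := fun x y => act_add g.2 x y
      map_smul' := by
        intro t x
        rcases z2_cases' t with rfl | rfl
        · simp only [zero_smul, RingHom.id_apply]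
          have h1 := act_add g.2 0 0
          rw [add_zero] at h1
          exact (left_eq_add.1 h1)
        · simp only [one_smul, RingHom.id_apply]
      left_inv := by
        intro x
        rw [← act_mul (K0.inv_mem g.2) g.2, inv_mul_cancel, act_one]
      right_inv := by
        intro x
        rw [← act_mul g.2 (K0.inv_mem g.2), mul_inv_cancel, act_one] })
    (by
      intro a b
      ext1 x
      exact act_mul a.2 b.2 x)

theorem theta_apply (g : ↥K0) (x : X3) : theta g x = act g.1 x := rfl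

theorem theta_inj : Function.Injective theta := by
  rw [injective_iff_map_eq_one]
  rintro ⟨_, l, hl, rfl⟩ h
  apply Subtype.ext
  have pl := okL_perm taK_ok hl
  have h1 : (taK.all fun l' => !((List.range 8).all fun a => Nat.beq (lk taC (lk l' (lk taD a))) a) || (l' == idL)) = true := chk4
  have h2 := List.all_eq_true.mp h1 l hl
  have h3 : ((List.range 8).all fun a => Nat.beq (lk taC (lk l (lk taD a))) a) = true := by
    rw [List.all_eq_true]
    intro a ha
    have ha' := List.mem_range.1 ha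
    have h4 : theta ⟨perm l, l, hl, rfl⟩ (vec a) = vec a := by
      rw [h]; rfl
    rw [theta_apply] at h4
    simp only at h4
    rw [act_perm pl, code_vec ⟨a, ha'⟩] at h4
    have h5 := congrArg code h4
    have hchk := List.all_eq_true.mp (List.all_eq_true.mp chk2 l hl) a (List.mem_range.2 ha')
    simp only [Bool.and_eq_true, Nat.blt_eq, Nat.beq_eq] at hchk
    have h6 := code_vec ⟨_, hchk.1⟩
    have h7 := code_vec ⟨a, ha'⟩
    simp only at h6 h7
    rw [h6, h7] at h5
    simpa using h5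
  rw [h3] at h2
  simp only [Bool.not_true, Bool.false_or] at h2
  show perm l = 1
  rw [beq_eq h2, perm_idL]

/-- The linear group and the matrix group. -/
noncomputable def glEquiv : Matrix.GeneralLinearGroup (Fin 3) (ZMod 2) ≃* (X3 ≃ₗ[ZMod 2] X3) :=
  (Matrix.GeneralLinearGroup.toLin (n := Fin 3) (R := ZMod 2)).trans
    (LinearMap.GeneralLinearGroup.generalLinearEquiv (ZMod 2) X3)

theorem card_lin : Nat.card (X3 ≃ₗ[ZMod 2] X3) = 168 := by
  rw [← Nat.card_congr glEquiv.toEquiv, Matrix.card_GL_field]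
  simp [Fin.prod_univ_three, ZMod.card]

instance finite_lin : Finite (X3 ≃ₗ[ZMod 2] X3) := Finite.of_equiv _ glEquiv.toEquiv

/-- The isomorphism of the complement with the special linear group. -/
noncomputable def equivK : ↥K0 ≃* Matrix.SpecialLinearGroup (Fin 3) (ZMod 2) :=
  (MulEquiv.ofBijective theta ((Nat.bijective_iff_injective_and_card theta).2
    ⟨theta_inj, by rw [card_K0, card_lin]⟩)).trans (glEquiv.symm.trans slEquivGL.symm)

/-! ### Inside `M24` -/

/-- The group. -/
abbrev GG := ↥Cfsg.M24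

/-- The involution. -/
noncomputable def z1 : GG := ⟨perm tA, perm_mem_M24 tA_perm aut_tA⟩

/-- The subgroups. -/
def Q1 : Subgroup GG := Q0.subgroupOf Cfsg.M24
def K1 : Subgroup GG := K0.subgroupOf Cfsg.M24
def E1 : Subgroup GG := E0.subgroupOf Cfsg.M24

theorem mem_Q1 {g : GG} : g ∈ Q1 ↔ g.1 ∈ Q0 := Subgroup.mem_subgroupOf
theorem mem_K1 {g : GG} : g ∈ K1 ↔ g.1 ∈ K0 := Subgroup.mem_subgroupOf
theorem mem_E1 {g : GG} : g ∈ E1 ↔ g.1 ∈ E0 := Subgroup.mem_subgroupOf

/-- The data. -/
theorem split1 : SplitData z1 Q1 K1 where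
  es :=
    { z_mem := mem_Q1.2 es_Q0.z_mem
      z_ne := fun h => es_Q0.z_ne (congrArg Subtype.val h)
      z_sq := Subtype.ext es_Q0.z_sq
      z_central := fun q hq => Subtype.ext (es_Q0.z_central q.1 (mem_Q1.1 hq))
      comm := by
        intro a ha b hb
        rcases es_Q0.comm a.1 (mem_Q1.1 ha) b.1 (mem_Q1.1 hb) with h | h
        · exact Or.inl (Subtype.ext h)
        · exact Or.inr (Subtype.ext h)
      sq := by
        intro a ha
        rcases es_Q0.sq a.1 (mem_Q1.1 ha) with h | h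
        · exact Or.inl (Subtype.ext h)
        · exact Or.inr (Subtype.ext h)
      center := by
        intro x hx h
        have h1 : ∀ q ∈ Q0, q * x.1 = x.1 * q := by
          intro q hq
          have := h ⟨q, Q0_le hq⟩ (mem_Q1.2 hq)
          exact congrArg Subtype.val this
        rcases es_Q0.center x.1 (mem_Q1.1 hx) h1 with h2 | h2
        · exact Or.inl (Subtype.ext h2)
        · exact Or.inr (Subtype.ext h2) }
  hne := by
    obtain ⟨a, ha, b, hb, hab⟩ := noncomm_Q0
    exact ⟨⟨a, Q0_le ha⟩, mem_Q1.2 ha, ⟨b, Q0_le hb⟩, mem_Q1.2 hb, fun h => hab (congrArg Subtype.val h)⟩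
  hn := by
    intro c hc q hq
    rw [mem_Q1]
    have hc' : c.1 * perm tA = perm tA * c.1 := congrArg Subtype.val hc
    obtain ⟨q', hq', k, hk, e⟩ := dec_C c.2 hc'
    have hq1 : q.1 ∈ Q0 := mem_Q1.1 hq
    have e1 : c.1 * q.1 * c.1⁻¹ = q' * (k * q.1 * k⁻¹) * q'⁻¹ := by
      rw [e]; group
    show c.1 * q.1 * c.1⁻¹ ∈ Q0
    rw [e1]
    exact Q0.mul_mem (Q0.mul_mem hq' (K_norm_Q hk hq1)) (Q0.inv_mem hq')
  hKC := by
    rintro k hk
    have hk1 := mem_K1.1 hk
    obtain ⟨l, hl, e⟩ := hk1
    have hchk : taK.all (fun l => commTA l) = true := by decide +kernel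
    have h1 := beq_eq (List.all_eq_true.mp hchk l hl)
    have pl := okL_perm taK_ok hl
    apply Subtype.ext
    show k.1 * perm tA = perm tA * k.1
    rw [e]
    exact perm_eq_of_list pl tA_perm _ _ tA_perm pl h1
  hdec := by
    intro c hc
    have hc' : c.1 * perm tA = perm tA * c.1 := congrArg Subtype.val hc
    obtain ⟨q', hq', k, hk, e⟩ := dec_C c.2 hc'
    exact ⟨⟨q', Q0_le hq'⟩, mem_Q1.2 hq', ⟨k, K0_le hk⟩, mem_K1.2 hk, Subtype.ext e⟩
  hK := by
    have e : ↥K1 ≃* Matrix.SpecialLinearGroup (Fin 3) (ZMod 2) :=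
      (Subgroup.subgroupOfEquivOfLe K0_le).trans equivK
    exact no_normal2_of_equiv e (fun P hP hP' => sl_no_normal2 P hP hP')
  hself := by
    intro x hx
    rw [mem_Q1]
    apply self_cent x.2
    intro q hq
    have := Subgroup.mem_centralizer_iff.1 hx ⟨q, Q0_le hq⟩ (mem_Q1.2 hq)
    exact congrArg Subtype.val this
  hg := by
    obtain ⟨g, hg, h1, h2⟩ := exists_conj_Q
    refine ⟨⟨g, hg⟩, mem_Q1.2 h1, fun h => h2 (congrArg Subtype.val h)⟩
  hQK := by
    rw [eq_bot_iff]
    rintro x ⟨h1, h2⟩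
    have : x.1 ∈ Q0 ⊓ K0 := ⟨mem_Q1.1 h1, mem_K1.1 h2⟩
    rw [Q0_inf_K0, Subgroup.mem_bot] at this
    rw [Subgroup.mem_bot]
    exact Subtype.ext this

theorem E1_le : E1 ≤ Q1 := fun x hx => mem_Q1.2 (E0_le_Q0 (mem_E1.1 hx))

theorem E1_ea : IsElementaryAbelian 2 E1 := by
  constructor
  · constructor
    constructor
    rintro ⟨a, ha⟩ ⟨b, hb⟩
    apply Subtype.ext
    apply Subtype.ext
    have hchk : taE.all (fun a => taE.all fun b => mulL a b == mulL b a) = true := by decide +kernel
    obtain ⟨l, hl, e⟩ := mem_E1.1 ha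
    obtain ⟨m, hm, e'⟩ := mem_E1.1 hb
    show a.1 * b.1 = b.1 * a.1
    rw [e, e']
    exact perm_eq_of_list (okL_perm taE_ok hl) (okL_perm taE_ok hm) _ _ (okL_perm taE_ok hm) (okL_perm taE_ok hl)
      (beq_eq (List.all_eq_true.mp (List.all_eq_true.mp hchk l hl) m hm))
  · intro a ha
    have hchk : taE.all (fun a => mulL a a == idL) = true := by decide +kernel
    obtain ⟨l, hl, e⟩ := mem_E1.1 ha
    apply Subtype.ext
    show a.1 ^ 2 = 1
    rw [e, pow_two, ← perm_mulL (okL_perm taE_ok hl) (okL_perm taE_ok hl), beq_eq (List.all_eq_true.mp hchk l hl), perm_idL]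

theorem card_Q1 : Nat.card Q1 = 128 := by
  rw [← card_Q0]
  exact Nat.card_congr (Subgroup.subgroupOfEquivOfLe Q0_le).toEquiv

theorem card_E1 : Nat.card E1 = 16 := by
  rw [← card_E0]
  exact Nat.card_congr (Subgroup.subgroupOfEquivOfLe (E0_le_Q0.trans Q0_le)).toEquiv

/-- The main theorem. -/
theorem main (z : GG) (hz : orderOf z = 2)
    (hfix : (Finset.univ.filter fun p : GolayPt => (z : Equiv.Perm GolayPt) p = p) ∈ Cfsg.octads)
    (Q : Subgroup GG) (hQ : Q = (Cfsg.pCore 2 ↥(Subgroup.centralizer ({z} : Set GG))).map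
      (Subgroup.centralizer ({z} : Set GG)).subtype) :
    Cfsg.IsExtraspecial 2 ↥Q ∧ Nat.card ↥Q = 2 ^ 7 ∧
      (∃ E : Subgroup GG, E ≤ Q ∧ Cfsg.IsElementaryAbelian 2 E ∧ Nat.card ↥E = 2 ^ 4) ∧
      Cfsg.IsLargeExtraspecial Q ∧
      ∃ K : Subgroup GG, K ≤ Subgroup.centralizer ({z} : Set GG) ∧ Q ⊓ K = ⊥ ∧
        Q ⊔ K = Subgroup.centralizer ({z} : Set GG) ∧
        Nonempty (↥K ≃* Matrix.SpecialLinearGroup (Fin 3) (ZMod 2)) := by
  have h2 : orderOf (z : Equiv.Perm GolayPt) = 2 := by
    rw [Subgroup.orderOf_coe]; exact hz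
  have hc : (Finset.univ.filter fun p : GolayPt => (z : Equiv.Perm GolayPt) p = p).card ≠ 0 := by
    rw [octad_card hfix]; norm_num
  obtain ⟨k, hk, e⟩ := conj_tA_of_card z.2 h2 hc
  let a : GG := ⟨k⁻¹, Cfsg.M24.inv_mem hk⟩
  have hza : z = a * z1 * a⁻¹ := by
    apply Subtype.ext
    show z.1 = k⁻¹ * perm tA * k⁻¹⁻¹
    rw [← e]
    group
  have D := split1.conj a
  rw [← hza] at D
  have hC : ∀ g, g ∈ Subgroup.centralizer ({z} : Set GG) ↔ g * z = z * g := by
    intro g
    rw [Subgroup.mem_centralizer_singleton_iff]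
  obtain ⟨h1, h3, h4, h5, h6⟩ := D.conclude _ hC
  rw [h1] at hQ
  subst hQ
  refine ⟨h3, ?_, ⟨E1.map (cjm a), Subgroup.map_mono E1_le, ?_, ?_⟩, h4, K1.map (cjm a), h6, D.hQK, h5, ?_⟩
  · rw [← Nat.card_congr (Q1.equivMapOfInjective _ (cjm_inj a)).toEquiv, card_Q1]
    norm_num
  · constructor
    · constructor
      constructor
      rintro ⟨_, x, hx, rfl⟩ ⟨_, y, hy, rfl⟩
      apply Subtype.ext
      have h7 := E1_ea.1.is_comm.comm (⟨x, hx⟩ : ↥E1) ⟨y, hy⟩
      have h8 : x * y = y * x := congrArg Subtype.val h7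
      show cjm a x * cjm a y = cjm a y * cjm a x
      rw [← map_mul, ← map_mul, h8]
    · rintro _ ⟨x, hx, rfl⟩
      rw [← map_pow, E1_ea.2 x hx, map_one]
  · rw [← Nat.card_congr (E1.equivMapOfInjective _ (cjm_inj a)).toEquiv, card_E1]
    norm_num
  · exact ⟨(K1.equivMapOfInjective _ (cjm_inj a)).symm.trans
      ((Subgroup.subgroupOfEquivOfLe K0_le).trans equivK)⟩

end Cfsg.Agent.Lib.M24X.TA
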