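import Mathlib

/-!
# Scott's lemma and the index inequality for permutations

For `A B C` with `A B C = 1` on a finite dimensional space, the ranks of `A - 1`, `B - 1`, `C - 1` are bounded
from below in terms of the common kernel and the sum of the ranges.  For permutations this gives the inequality
of Ree on the indices.
-/

set_option autoImplicit false
set_option linter.unusedSimpArgs false
set_option linter.unusedVariables false
set_option linter.unusedSectionVars false
set_option linter.style.haveILetI false

namespace Cfsg.Agent.Lib.M24X.Ree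

open Module LinearMap

section Scott

variable {F : Type*} [Field F] {V : Type*} [AddCommGroup V] [Module F V] [FiniteDimensional F V]

/-- Scott's lemma, for three endomorphisms. -/
theorem scott (A B C : V →ₗ[F] V) (h : ∀ v, A (B (C v)) = v) :
    finrank F V + finrank F ↥(range (A - LinearMap.id) ⊔ (range (B - LinearMap.id) ⊔ range (C - LinearMap.id))) ≤
      finrank F ↥(range (A - LinearMap.id)) + (finrank F ↥(range (B - LinearMap.id)) + finrank F ↥(range (C - LinearMap.id))) +
        finrank F ↥(ker (A - LinearMap.id) ⊓ (ker (B - LinearMap.id) ⊓ ker (C - LinearMap.id))) := by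
  classical
  let δ : V →ₗ[F] ↥(range (A - LinearMap.id)) × ↥(range (B - LinearMap.id)) × ↥(range (C - LinearMap.id)) :=
    ((A - LinearMap.id).rangeRestrict ∘ₗ (B ∘ₗ C)).prod (((B - LinearMap.id).rangeRestrict ∘ₗ C).prod (C - LinearMap.id).rangeRestrict)
  let s : ↥(range (A - LinearMap.id)) × ↥(range (B - LinearMap.id)) × ↥(range (C - LinearMap.id)) →ₗ[F] V :=
    (range (A - LinearMap.id)).subtype.coprod ((range (B - LinearMap.id)).subtype.coprod (range (C - LinearMap.id)).subtype)
  have h1 := finrank_range_add_finrank_ker δ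
  have h2 := finrank_range_add_finrank_ker s
  have h3 : finrank F (↥(range (A - LinearMap.id)) × ↥(range (B - LinearMap.id)) × ↥(range (C - LinearMap.id))) =
      finrank F ↥(range (A - LinearMap.id)) + (finrank F ↥(range (B - LinearMap.id)) + finrank F ↥(range (C - LinearMap.id))) := by
    rw [Module.finrank_prod, Module.finrank_prod]
  have hsd : ∀ v, s (δ v) = 0 := by
    intro v
    show ((A - LinearMap.id : V →ₗ[F] V) (B (C v))) + (((B - LinearMap.id : V →ₗ[F] V) (C v)) + ((C - LinearMap.id : V →ₗ[F] V) v)) = 0
    simp only [LinearMap.sub_apply, LinearMap.id_apply, h]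
    abel
  have h4 : finrank F ↥(range δ) ≤ finrank F ↥(ker s) := by
    apply Submodule.finrank_mono
    rintro _ ⟨v, rfl⟩
    exact hsd v
  have h5 : finrank F ↥(ker δ) ≤ finrank F ↥(ker (A - LinearMap.id) ⊓ (ker (B - LinearMap.id) ⊓ ker (C - LinearMap.id))) := by
    apply Submodule.finrank_mono
    intro v hv
    have hv' : δ v = 0 := hv
    have e1 : ((A - LinearMap.id : V →ₗ[F] V) (B (C v))) = 0 := congrArg (fun t => ((t.1 : ↥(range (A - LinearMap.id))) : V)) hv'
    have e2 : ((B - LinearMap.id : V →ₗ[F] V) (C v)) = 0 := congrArg (fun t => ((t.2.1 : ↥(range (B - LinearMap.id))) : V)) hv'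
    have e3 : ((C - LinearMap.id : V →ₗ[F] V) v) = 0 := congrArg (fun t => ((t.2.2 : ↥(range (C - LinearMap.id))) : V)) hv'
    have c1 : C v = v := by
      simpa [sub_eq_zero] using e3
    rw [c1] at e1 e2
    have c2 : B v = v := by
      simpa [sub_eq_zero] using e2
    rw [c2] at e1
    exact ⟨e1, e2, e3⟩
  have h6 : range s = range (A - LinearMap.id) ⊔ (range (B - LinearMap.id) ⊔ range (C - LinearMap.id)) := by
    show range ((range (A - LinearMap.id)).subtype.coprod ((range (B - LinearMap.id)).subtype.coprod (range (C - LinearMap.id)).subtype)) = _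
    rw [LinearMap.range_coprod, LinearMap.range_coprod, Submodule.range_subtype, Submodule.range_subtype,
      Submodule.range_subtype]
  rw [h6] at h2
  omega

end Scott

section Perm

variable {Ω : Type*} [Fintype Ω] [DecidableEq Ω]

/-- The permutation action on functions. -/
noncomputable def T (g : Equiv.Perm Ω) : (Ω → ZMod 2) →ₗ[ZMod 2] (Ω → ZMod 2) :=
  LinearMap.funLeft (ZMod 2) (ZMod 2) g

theorem T_apply (g : Equiv.Perm Ω) (f : Ω → ZMod 2) (a : Ω) : T g f a = f (g a) := rfl

theorem T_mul (g h : Equiv.Perm Ω) (f : Ω → ZMod 2) : T (g * h) f = T h (T g f) := rfl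

theorem T_one (f : Ω → ZMod 2) : T (1 : Equiv.Perm Ω) f = f := rfl

/-- The rank of `g - 1` on the permutation module. -/
noncomputable def dd (g : Equiv.Perm Ω) : ℕ := finrank (ZMod 2) ↥(range (T g - LinearMap.id))

/-- The cycles of a permutation. -/
abbrev Cyc (g : Equiv.Perm Ω) := Quotient (Equiv.Perm.SameCycle.setoid g)

theorem dd_add_card (g : Equiv.Perm Ω) : dd g + Nat.card (Cyc g) ≤ Fintype.card Ω := by
  classical
  haveI : Fintype (Cyc g) := Fintype.ofFinite _
  have hrk := finrank_range_add_finrank_ker (T g - LinearMap.id)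
  rw [Module.finrank_fintype_fun_eq_card] at hrk
  let mk : Ω → Cyc g := Quotient.mk _
  have hmk : Function.Surjective mk := Quotient.mk_surjective
  let pull : (Cyc g → ZMod 2) →ₗ[ZMod 2] (Ω → ZMod 2) := LinearMap.funLeft (ZMod 2) (ZMod 2) mk
  have hinj : Function.Injective pull := LinearMap.funLeft_injective_of_surjective _ _ _ hmk
  have h1 : finrank (ZMod 2) ↥(range pull) = Fintype.card (Cyc g) := by
    rw [LinearMap.finrank_range_of_inj hinj, Module.finrank_fintype_fun_eq_card]
  have h2 : range pull ≤ ker (T g - LinearMap.id) := by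
    rintro _ ⟨φ, rfl⟩
    rw [LinearMap.mem_ker]
    funext a
    have hs : mk (g a) = mk a := by
      apply Quotient.sound
      show Equiv.Perm.SameCycle g (g a) a
      exact (Equiv.Perm.sameCycle_apply_left.2 (Equiv.Perm.SameCycle.refl g a))
    show φ (mk (g a)) - φ (mk a) = 0
    rw [hs, sub_self]
  have h3 := Submodule.finrank_mono h2
  rw [h1] at h3
  rw [Nat.card_eq_fintype_card]
  unfold dd
  omega

/-- The counting of cycles. -/
theorem card_cyc (g : Equiv.Perm Ω) {n : ℕ} (hn : 0 < n) (hg : g ^ n = 1) :
    Fintype.card Ω + (n - 1) * (Finset.univ.filter fun a => g a = a).card ≤ n * Nat.card (Cyc g) := by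
  classical
  haveI : Fintype (Cyc g) := Fintype.ofFinite _
  let mk : Ω → Cyc g := Quotient.mk _
  have hmk : ∀ q : Cyc g, ∃ a, mk a = q := Quotient.mk_surjective
  have hsame : ∀ a b, mk a = mk b → ∃ i : ℕ, i < n ∧ (g ^ i) a = b := by
    intro a b hab
    have h1 : Equiv.Perm.SameCycle g a b := Quotient.exact hab
    obtain ⟨i, hi⟩ := h1
    have hn' : (n : ℤ) ≠ 0 := by exact_mod_cast hn.ne'
    have h2 : g ^ i = g ^ (i % (n : ℤ)) := zpow_eq_zpow_emod i (by rw [zpow_natCast]; exact hg)
    have h3 : 0 ≤ i % (n : ℤ) := Int.emod_nonneg _ hn'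
    have h4 : i % (n : ℤ) < n := Int.emod_lt_of_pos _ (by exact_mod_cast hn)
    refine ⟨(i % (n : ℤ)).toNat, by omega, ?_⟩
    have h5 : g ^ (i % (n : ℤ)).toNat = g ^ (i % (n : ℤ)) := by
      rw [← zpow_natCast, Int.toNat_of_nonneg h3]
    rw [h5, ← h2, hi]
  have hfix : ∀ a b, g a = a → mk a = mk b → b = a := by
    intro a b ha hab
    obtain ⟨i, -, hi⟩ := hsame a b hab
    rw [← hi]
    exact Equiv.Perm.pow_apply_eq_self_of_apply_eq_self ha i
  have hsum1 : Fintype.card Ω = ∑ q : Cyc g, (Finset.univ.filter fun a => mk a = q).card := by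
    rw [← Finset.card_univ]
    exact Finset.card_eq_sum_card_fiberwise (fun _ _ => Finset.mem_coe.2 (Finset.mem_univ _))
  have hsum2 : (Finset.univ.filter fun a => g a = a).card =
      ∑ q : Cyc g, ((Finset.univ.filter fun a => g a = a).filter fun a => mk a = q).card :=
    Finset.card_eq_sum_card_fiberwise (fun _ _ => Finset.mem_coe.2 (Finset.mem_univ _))
  have hpt : ∀ q : Cyc g, (Finset.univ.filter fun a => mk a = q).card +
      (n - 1) * ((Finset.univ.filter fun a => g a = a).filter fun a => mk a = q).card ≤ n := by
    intro q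
    by_cases hex : ∃ b, g b = b ∧ mk b = q
    · obtain ⟨b, hb, hbq⟩ := hex
      have e1 : (Finset.univ.filter fun a => mk a = q) = {b} := by
        ext a
        simp only [Finset.mem_filter, Finset.mem_univ, true_and, Finset.mem_singleton]
        constructor
        · intro h
          exact hfix b a hb (hbq.trans h.symm)
        · rintro rfl
          exact hbq
      have e2 : ((Finset.univ.filter fun a => g a = a).filter fun a => mk a = q) = {b} := by
        ext a
        simp only [Finset.mem_filter, Finset.mem_univ, true_and, Finset.mem_singleton]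
        constructor
        · intro h
          exact hfix b a hb (hbq.trans h.2.symm)
        · rintro rfl
          exact ⟨hb, hbq⟩
      rw [e1, e2, Finset.card_singleton]
      omega
    · have e2 : ((Finset.univ.filter fun a => g a = a).filter fun a => mk a = q) = ∅ := by
        ext a
        simp only [Finset.mem_filter, Finset.mem_univ, true_and, Finset.notMem_empty, iff_false]
        rintro ⟨h1, h2⟩
        exact hex ⟨a, h1, h2⟩
      rw [e2, Finset.card_empty, mul_zero, add_zero]
      obtain ⟨a, ha⟩ := hmk q
      have hle : (Finset.univ.filter fun b => mk b = q) ⊆ (Finset.range n).image (fun i => (g ^ i) a) := by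
        intro b hb
        simp only [Finset.mem_filter, Finset.mem_univ, true_and] at hb
        obtain ⟨i, hi, e⟩ := hsame a b (ha.trans hb.symm)
        exact Finset.mem_image.2 ⟨i, Finset.mem_range.2 hi, e⟩
      calc _ ≤ ((Finset.range n).image (fun i => (g ^ i) a)).card := Finset.card_le_card hle
        _ ≤ (Finset.range n).card := Finset.card_image_le
        _ = n := Finset.card_range n
  have hall : ∑ q : Cyc g, ((Finset.univ.filter fun a => mk a = q).card +
      (n - 1) * ((Finset.univ.filter fun a => g a = a).filter fun a => mk a = q).card) ≤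
      ∑ q : Cyc g, n := Finset.sum_le_sum fun q _ => hpt q
  rw [Finset.sum_add_distrib, ← Finset.mul_sum, ← hsum1, ← hsum2, Finset.sum_const, Finset.card_univ,
    smul_eq_mul, mul_comm (Fintype.card (Cyc g))] at hall
  rw [Nat.card_eq_fintype_card]
  exact hall

/-- The rank bound from the number of fixed points and the order. -/
theorem dd_bound (g : Equiv.Perm Ω) {n : ℕ} (hn : 0 < n) (hg : g ^ n = 1) :
    n * dd g + Fintype.card Ω + (n - 1) * (Finset.univ.filter fun a => g a = a).card ≤ n * Fintype.card Ω := by
  have h1 := dd_add_card g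
  have h2 := card_cyc g hn hg
  calc n * dd g + Fintype.card Ω + (n - 1) * (Finset.univ.filter fun a => g a = a).card
      = n * dd g + (Fintype.card Ω + (n - 1) * (Finset.univ.filter fun a => g a = a).card) := by ring
    _ ≤ n * dd g + n * Nat.card (Cyc g) := by omega
    _ = n * (dd g + Nat.card (Cyc g)) := by ring
    _ ≤ n * Fintype.card Ω := Nat.mul_le_mul_left _ h1

/-- The trivial bound. -/
theorem dd_lt [Nonempty Ω] (g : Equiv.Perm Ω) : dd g + 1 ≤ Fintype.card Ω := by
  have h1 := dd_add_card g
  haveI : Nonempty (Cyc g) := ⟨Quotient.mk _ (Classical.arbitrary Ω)⟩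
  have h2 : 0 < Nat.card (Cyc g) := Nat.card_pos
  omega

end Perm

end Cfsg.Agent.Lib.M24X.Ree
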