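import Cfsg.Agent.Lib.M24X.OctadOrbits
import Cfsg.Agent.Lib.M24X.Cent

/-!
# Six-sets: the stabiliser of five points and the symmetric group induced on a six-set.
-/

set_option autoImplicit false
set_option maxRecDepth 100000
set_option maxHeartbeats 1000000

namespace Cfsg.Agent.Lib.M24X

open Cfsg Cfsg.Agent.Lib.Golay MulAction
open scoped Pointwise

theorem card_subtype_of_listing {P : Equiv.Perm GolayPt → Prop} {Z : List (List ℕ)}
    (hv : ∀ l ∈ Z, isPerm l = true) (hnd : Z.Nodup) (hK : ∀ g, P g ↔ ∃ l ∈ Z, g = perm l) :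
    Nat.card {g // P g} = Z.length := by
  classical
  have h1 : {g | P g} = ((Z.map perm).toFinset : Finset (Equiv.Perm GolayPt)) := by
    ext g
    simp only [Set.mem_ofPred_eq, hK, Finset.mem_coe, List.mem_toFinset, List.mem_map, eq_comm]
  have h2 : (Z.map perm).Nodup := by
    refine List.Nodup.map_on ?_ hnd
    intro a ha b hb he
    exact perm_inj (hv a ha) (hv b hb) he
  have h3 : Nat.card {g // P g} = {g | P g}.ncard := rfl
  rw [h3, h1, Set.ncard_coe_finset, List.toFinset_card_of_nodup h2, List.length_map]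

/-- The 48 elements fixing the first five base points. -/
def stab5L : List (List ℕ) := m24T5.flatMap fun b => m24T6.map fun c => mulL b c

theorem stab5L_ok : stab5L.all (fun l => isPerm l && autCheck l && Nat.beq (lk l 23) 23 &&
    Nat.beq (lk l 0) 0 && Nat.beq (lk l 1) 1 && Nat.beq (lk l 2) 2 && Nat.beq (lk l 3) 3) = true := by
  decide +kernel

theorem stab5L_nodup : stab5L.Nodup := by decide +kernel

theorem stab5L_perm {l : List ℕ} (hl : l ∈ stab5L) : isPerm l = true := by
  have := List.all_eq_true.mp stab5L_ok l hl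
  simp only [Bool.and_eq_true] at this
  exact this.1.1.1.1.1.1

theorem stab5L_M24 {l : List ℕ} (hl : l ∈ stab5L) : perm l ∈ M24 := by
  have := List.all_eq_true.mp stab5L_ok l hl
  simp only [Bool.and_eq_true] at this
  exact perm_mem_M24 this.1.1.1.1.1.1 this.1.1.1.1.1.2

theorem stab5L_fix {l : List ℕ} (hl : l ∈ stab5L) (i : Fin 5) : perm l (base5 i) = base5 i := by
  have := List.all_eq_true.mp stab5L_ok l hl
  simp only [Bool.and_eq_true, Nat.beq_eq] at this
  obtain ⟨⟨⟨⟨⟨⟨hp, -⟩, h23⟩, h0⟩, h1⟩, h2⟩, h3⟩ := this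
  fin_cases i
  · show perm l (pt 23) = pt 23
    rw [perm_pt hp (by norm_num), h23]
  · show perm l (pt 0) = pt 0
    rw [perm_pt hp (by norm_num), h0]
  · show perm l (pt 1) = pt 1
    rw [perm_pt hp (by norm_num), h1]
  · show perm l (pt 2) = pt 2
    rw [perm_pt hp (by norm_num), h2]
  · show perm l (pt 3) = pt 3
    rw [perm_pt hp (by norm_num), h3]

/-- An element fixing the five base points is in the list. -/
theorem exists_stab5L {g : Equiv.Perm GolayPt} (hg : g ∈ M24) (hf : ∀ i, g (base5 i) = base5 i) :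
    ∃ l ∈ stab5L, g = perm l := by
  have hs : g ∈ stabL M24 [23, 0, 1, 2, 3] := by
    rw [mem_stabL]
    refine ⟨hg, ?_⟩
    intro b hb
    simp only [List.mem_cons, List.not_mem_nil, or_false] at hb
    rcases hb with rfl | rfl | rfl | rfl | rfl
    · exact hf 0
    · exact hf 1
    · exact hf 2
    · exact hf 3
    · exact hf 4
  obtain ⟨b, hb, c, hc, hp, he⟩ := dec5 hs
  refine ⟨mulL b c, ?_, he⟩
  simp only [stab5L, List.mem_flatMap, List.mem_map]
  exact ⟨b, hb, c, hc, rfl⟩

theorem not_base5 : ∀ z : GolayPt, (∀ i, z ≠ base5 i) → idx z ∉ [23, 0, 1, 2, 3] := by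
  decide +kernel

/-- The stabiliser of the base is transitive on the remaining points of its octad and on the points
outside of it. -/
theorem stab5_trans_check : ∀ u v : Fin 24, (u : ℕ) ∉ [23, 0, 1, 2, 3] → (v : ℕ) ∉ [23, 0, 1, 2, 3] →
    Nat.testBit m0 u = Nat.testBit m0 v → ∃ l ∈ stab5L, lk l u = v := by
  decide +kernel

/-- The number of elements fixing a further point. -/
theorem stab5_count_check : ∀ u : Fin 24, (u : ℕ) ∉ [23, 0, 1, 2, 3] →
    (stab5L.filter fun l => Nat.beq (lk l u) u).length = if Nat.testBit m0 u then 16 else 3 := by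
  decide +kernel

theorem base5_inj : Function.Injective base5 := by decide +kernel

/-- The base octad is the octad through the base. -/
theorem octad_through_base {o : Finset GolayPt} (ho : o ∈ octads) (h : ∀ i, base5 i ∈ o) :
    o = finOf m0 := by
  have h0 : finOf m0 ∈ octads := finOf_mem_octads (by decide +kernel)
  classical
  have hc : (Finset.univ.image base5).card = 5 := by
    rw [Finset.card_image_of_injective _ base5_inj]
    rfl
  apply octad_unique hc ho h0
  · intro x hx
    obtain ⟨i, -, rfl⟩ := Finset.mem_image.mp hx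
    exact h i
  · intro x hx
    obtain ⟨i, -, rfl⟩ := Finset.mem_image.mp hx
    exact base5_mem_m0 i

/-- Two points off five given points, both in or both outside the octad of these points, are
conjugate under the pointwise stabiliser. -/
theorem exists_fix_five_map {Q : Fin 5 → GolayPt} (hQ : Function.Injective Q) {O : Finset GolayPt}
    (hO : O ∈ octads) (hQO : ∀ i, Q i ∈ O) {y y' : GolayPt} (hy : ∀ i, y ≠ Q i) (hy' : ∀ i, y' ≠ Q i)
    (hiff : y ∈ O ↔ y' ∈ O) : ∃ b ∈ M24, (∀ i, b (Q i) = Q i) ∧ b y = y' := by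
  obtain ⟨c, hc, he⟩ := exists_to_base hQ
  have hcO : c • O = finOf m0 := octad_through_base (smul_octad hc hO) (fun i => by
    rw [← he i]
    exact (mem_smul_iff c _ _).mpr (hQO i))
  have hnot : ∀ z, (∀ i, z ≠ Q i) → idx (c z) ∉ [23, 0, 1, 2, 3] := by
    intro z hz
    apply not_base5
    intro i h
    rw [← he i] at h
    exact hz i (c.injective h)
  have hbit : ∀ z, Nat.testBit m0 (idx (c z)) = true ↔ z ∈ O := by
    intro z
    rw [← mem_finOf, ← hcO]
    exact mem_smul_iff c _ _
  obtain ⟨l, hl, hlk⟩ := stab5_trans_check ⟨idx (c y), idx_lt _⟩ ⟨idx (c y'), idx_lt _⟩ (hnot y hy)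
    (hnot y' hy') (by
      rw [Bool.eq_iff_iff]
      exact (hbit y).trans (hiff.trans (hbit y').symm))
  refine ⟨c⁻¹ * perm l * c, M24.mul_mem (M24.mul_mem (M24.inv_mem hc) (stab5L_M24 hl)) hc, ?_, ?_⟩
  · intro i
    simp only [Equiv.Perm.mul_apply]
    rw [he i, stab5L_fix hl i, ← he i]
    simp
  · simp only [Equiv.Perm.mul_apply]
    have : perm l (c y) = c y' := by
      rw [perm_pt_idx (stab5L_perm hl)]
      have h2 : lk l (idx (c y)) = idx (c y') := hlk
      rw [h2, pt_idx]
    rw [this]
    simp

/-! ### The group induced on a six-set -/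

/-- Every permutation of a six-set is induced by `M24`. -/
theorem six_induced (E : Finset GolayPt) (hE : E.card = 6) (σ : Equiv.Perm ↥E) :
    ∃ g ∈ M24, ∀ p : ↥E, g p = σ p := by
  classical
  let e : ↥E ≃ Fin 6 := E.equivFinOfCardEq hE
  let f : Fin 5 → GolayPt := fun i => (e.symm i.castSucc : GolayPt)
  let y : GolayPt := (e.symm (Fin.last 5) : GolayPt)
  let Q : Fin 5 → GolayPt := fun i => (σ (e.symm i.castSucc) : GolayPt)
  let y' : GolayPt := (σ (e.symm (Fin.last 5)) : GolayPt)
  have hf : Function.Injective f := fun i j h =>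
    Fin.castSucc_injective _ (e.symm.injective (Subtype.ext h))
  have hQ : Function.Injective Q := fun i j h =>
    Fin.castSucc_injective _ (e.symm.injective (σ.injective (Subtype.ext h)))
  have hyne : ∀ i, y ≠ f i := by
    intro i h
    have := e.symm.injective (Subtype.ext h)
    exact absurd this (Fin.castSucc_lt_last i).ne'
  have hyne' : ∀ i, y' ≠ Q i := by
    intro i h
    have := e.symm.injective (σ.injective (Subtype.ext h))
    exact absurd this (Fin.castSucc_lt_last i).ne'
  obtain ⟨a, ha, hae⟩ := exists_map_five f Q hf hQ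
  obtain ⟨O, hO, hsub⟩ := octad_exists (s := Finset.univ.image f)
    (by rw [Finset.card_image_of_injective _ hf]; rfl)
  have hfO : ∀ i, f i ∈ O := fun i => hsub (Finset.mem_image_of_mem _ (Finset.mem_univ _))
  have hO' : a • O ∈ octads := smul_octad ha hO
  have hQO' : ∀ i, Q i ∈ a • O := fun i => by
    rw [← hae i]
    exact (mem_smul_iff a _ _).mpr (hfO i)
  have hcQ : (Finset.univ.image Q).card = 5 := by
    rw [Finset.card_image_of_injective _ hQ]; rfl
  have hcF : (Finset.univ.image f).card = 5 := by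
    rw [Finset.card_image_of_injective _ hf]; rfl
  have hallE : ∀ j : Fin 6, (e.symm j : GolayPt) = y ∨ ∃ i, (e.symm j : GolayPt) = f i := by
    intro j
    induction j using Fin.lastCases with
    | last => exact Or.inl rfl
    | cast i => exact Or.inr ⟨i, rfl⟩
  have hallS : ∀ j : Fin 6, (σ (e.symm j) : GolayPt) = y' ∨ ∃ i, (σ (e.symm j) : GolayPt) = Q i := by
    intro j
    induction j using Fin.lastCases with
    | last => exact Or.inl rfl
    | cast i => exact Or.inr ⟨i, rfl⟩
  have hiff : a y ∈ a • O ↔ y' ∈ a • O := by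
    rw [mem_smul_iff]
    constructor
    · intro hy
      have hEO : ∀ p : ↥E, (p : GolayPt) ∈ O := by
        intro p
        have hp : p = e.symm (e p) := by simp
        rw [hp]
        rcases hallE (e p) with h | ⟨i, h⟩
        · rw [h]; exact hy
        · rw [h]; exact hfO i
      have heq : a • O = O := by
        apply octad_unique hcQ hO' hO
        · intro x hx
          obtain ⟨i, -, rfl⟩ := Finset.mem_image.mp hx
          exact hQO' i
        · intro x hx
          obtain ⟨i, -, rfl⟩ := Finset.mem_image.mp hx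
          exact hEO _
      rw [heq]
      exact hEO _
    · intro hy
      have hEO : ∀ p : ↥E, (p : GolayPt) ∈ a • O := by
        intro p
        have hp : p = σ (e.symm (e (σ⁻¹ p))) := by simp
        rw [hp]
        rcases hallS (e (σ⁻¹ p)) with h | ⟨i, h⟩
        · rw [h]; exact hy
        · rw [h]; exact hQO' i
      have heq : a • O = O := by
        apply octad_unique hcF hO' hO
        · intro x hx
          obtain ⟨i, -, rfl⟩ := Finset.mem_image.mp hx
          exact hEO _
        · intro x hx
          obtain ⟨i, -, rfl⟩ := Finset.mem_image.mp hx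
          exact hfO i
      have := hEO (e.symm (Fin.last 5))
      rw [heq] at this
      exact this
  have hay : ∀ i, a y ≠ Q i := by
    intro i h
    rw [← hae i] at h
    exact hyne i (a.injective h)
  obtain ⟨b, hb, hbf, hby⟩ := exists_fix_five_map hQ hO' hQO' hay hyne' hiff
  refine ⟨b * a, M24.mul_mem hb ha, ?_⟩
  intro p
  have hp : p = e.symm (e p) := by simp
  rw [hp]
  generalize e p = j
  induction j using Fin.lastCases with
  | last =>
    rw [Equiv.Perm.mul_apply]
    exact hby
  | cast i =>
    rw [Equiv.Perm.mul_apply]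
    show b (a (f i)) = Q i
    rw [hae i, hbf i]

/-- The order of the pointwise stabiliser of a six-set. -/
theorem six_card (E : Finset GolayPt) (hE : E.card = 6) :
    ((∃ o ∈ octads, E ⊆ o) → Nat.card {g : Equiv.Perm GolayPt // g ∈ M24 ∧ ∀ p ∈ E, g p = p} = 16) ∧
      ((¬ ∃ o ∈ octads, E ⊆ o) → Nat.card {g : Equiv.Perm GolayPt // g ∈ M24 ∧ ∀ p ∈ E, g p = p} = 3) := by
  classical
  let e : ↥E ≃ Fin 6 := E.equivFinOfCardEq hE
  let f : Fin 5 → GolayPt := fun i => (e.symm i.castSucc : GolayPt)
  let y : GolayPt := (e.symm (Fin.last 5) : GolayPt)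
  have hf : Function.Injective f := fun i j h =>
    Fin.castSucc_injective _ (e.symm.injective (Subtype.ext h))
  have hyne : ∀ i, y ≠ f i := by
    intro i h
    have := e.symm.injective (Subtype.ext h)
    exact absurd this (Fin.castSucc_lt_last i).ne'
  have hallE : ∀ p ∈ E, p = y ∨ ∃ i, p = f i := by
    intro p hp
    have h1 : (⟨p, hp⟩ : ↥E) = e.symm (e ⟨p, hp⟩) := by simp
    have h2 : p = (e.symm (e ⟨p, hp⟩) : GolayPt) := congrArg Subtype.val h1
    rw [h2]
    generalize e ⟨p, hp⟩ = j
    induction j using Fin.lastCases with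
    | last => exact Or.inl rfl
    | cast i => exact Or.inr ⟨i, rfl⟩
  have hfE : ∀ i, f i ∈ E := fun i => (e.symm i.castSucc).2
  have hyE : y ∈ E := (e.symm (Fin.last 5)).2
  obtain ⟨c, hc, he⟩ := exists_to_base hf
  let x : GolayPt := c y
  have hx : idx x ∉ [23, 0, 1, 2, 3] := by
    apply not_base5
    intro i h
    rw [← he i] at h
    exact hyne i (c.injective h)
  -- conjugation to the base
  have hcount : Nat.card {g : Equiv.Perm GolayPt // g ∈ M24 ∧ ∀ p ∈ E, g p = p} =
      (stab5L.filter fun l => Nat.beq (lk l (idx x)) (idx x)).length := by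
    have h1 : Nat.card {g : Equiv.Perm GolayPt // g ∈ M24 ∧ ∀ p ∈ E, g p = p} =
        Nat.card {g : Equiv.Perm GolayPt // g ∈ M24 ∧ (∀ i, g (base5 i) = base5 i) ∧ g x = x} := by
      apply Nat.card_congr
      refine ⟨fun g => ⟨c * g.1 * c⁻¹, M24.mul_mem (M24.mul_mem hc g.2.1) (M24.inv_mem hc), ?_, ?_⟩,
        fun g => ⟨c⁻¹ * g.1 * c, M24.mul_mem (M24.mul_mem (M24.inv_mem hc) g.2.1) hc, ?_⟩, ?_, ?_⟩
      · intro i
        simp only [Equiv.Perm.mul_apply]
        rw [← he i]
        simp [g.2.2 _ (hfE i)]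
      · simp only [Equiv.Perm.mul_apply]
        simp [x, g.2.2 _ hyE]
      · intro p hp
        simp only [Equiv.Perm.mul_apply]
        rcases hallE p hp with rfl | ⟨i, rfl⟩
        · have : g.1 (c y) = c y := g.2.2.2
          rw [this]
          simp
        · rw [he i, g.2.2.1 i, ← he i]
          simp
      · intro g
        apply Subtype.ext
        simp [mul_assoc]
      · intro g
        apply Subtype.ext
        simp [mul_assoc]
    rw [h1]
    have hv : ∀ l ∈ stab5L.filter (fun l => Nat.beq (lk l (idx x)) (idx x)), isPerm l = true :=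
      fun l hl => stab5L_perm (List.mem_filter.mp hl).1
    have hnd : (stab5L.filter fun l => Nat.beq (lk l (idx x)) (idx x)).Nodup :=
      stab5L_nodup.sublist List.filter_sublist
    refine card_subtype_of_listing hv hnd ?_
    intro g
    constructor
    · rintro ⟨hg, hb, hgx⟩
      obtain ⟨l, hl, rfl⟩ := exists_stab5L hg hb
      refine ⟨l, List.mem_filter.mpr ⟨hl, ?_⟩, rfl⟩
      rw [Nat.beq_eq]
      have := congrArg idx hgx
      rwa [idx_perm (stab5L_perm hl)] at this
    · rintro ⟨l, hl, rfl⟩
      obtain ⟨hl1, hl2⟩ := List.mem_filter.mp hl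
      refine ⟨stab5L_M24 hl1, stab5L_fix hl1, ?_⟩
      rw [perm_pt_idx (stab5L_perm hl1), Nat.eq_of_beq_eq_true hl2, pt_idx]
  have hval := stab5_count_check ⟨idx x, idx_lt _⟩ hx
  have hfilter : (stab5L.filter fun l => Nat.beq (lk l (idx x)) (idx x)).length =
      if Nat.testBit m0 (idx x) then 16 else 3 := hval
  rw [hcount, hfilter]
  have hoct0 : finOf m0 ∈ octads := finOf_mem_octads (by decide +kernel)
  constructor
  · rintro ⟨o, ho, hEo⟩
    have h2 : c • o = finOf m0 := octad_through_base (smul_octad hc ho) (fun i => by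
      rw [← he i]
      exact (mem_smul_iff c _ _).mpr (hEo (hfE i)))
    have h3 : x ∈ finOf m0 := by
      rw [← h2]
      exact (mem_smul_iff c _ _).mpr (hEo hyE)
    rw [if_pos (mem_finOf.mp h3)]
  · intro hno
    have h3 : Nat.testBit m0 (idx x) ≠ true := by
      intro h
      apply hno
      refine ⟨c⁻¹ • finOf m0, smul_octad (M24.inv_mem hc) hoct0, ?_⟩
      intro p hp
      rw [Finset.mem_inv_smul_finset_iff, Equiv.Perm.smul_def]
      rcases hallE p hp with rfl | ⟨i, rfl⟩
      · exact mem_finOf.mpr h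
      · rw [he i]
        exact base5_mem_m0 i
    rw [if_neg h3]

/-- The stabiliser of a six-set outside octads. -/
theorem six_setwise (E : Finset GolayPt) (hE : E.card = 6)
    (h3 : Nat.card {g : Equiv.Perm GolayPt // g ∈ M24 ∧ ∀ p ∈ E, g p = p} = 3) :
    Nat.card ↥(stabilizer ↥M24 E) = 2160 := by
  classical
  have hact : ∀ (g : ↥(stabilizer ↥M24 E)) (x : GolayPt), ((g : ↥M24) : Equiv.Perm GolayPt) x ∈ E ↔ x ∈ E := by
    intro g x
    have h1 : ((g : ↥M24) : Equiv.Perm GolayPt) • E = E := mem_stabilizer_iff.mp g.2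
    constructor
    · intro hx
      apply (mem_smul_iff ((g : ↥M24) : Equiv.Perm GolayPt) _ _).mp
      rwa [h1]
    · intro hx
      have := (mem_smul_iff ((g : ↥M24) : Equiv.Perm GolayPt) _ _).mpr hx
      rwa [h1] at this
  let ψ : ↥(stabilizer ↥M24 E) →* Equiv.Perm ↥E :=
    { toFun := fun g => ((g : ↥M24) : Equiv.Perm GolayPt).subtypePerm (hact g)
      map_one' := by
        ext x
        simp
      map_mul' := by
        intro a b
        apply Equiv.ext
        intro x
        apply Subtype.ext
        rfl }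
  have hsurj : Function.Surjective ψ := by
    intro σ
    obtain ⟨g, hg, he⟩ := six_induced E hE σ
    have hgE : g • E = E := by
      apply Finset.eq_of_subset_of_card_le
      · intro x hx
        obtain ⟨y, hy, rfl⟩ := Finset.mem_smul_finset.mp hx
        rw [Equiv.Perm.smul_def, he ⟨y, hy⟩]
        exact (σ ⟨y, hy⟩).2
      · rw [Finset.card_smul_finset]
    refine ⟨⟨⟨g, hg⟩, mem_stabilizer_iff.mpr hgE⟩, ?_⟩
    apply Equiv.ext
    intro x
    apply Subtype.ext
    exact he x
  have hrange : Nat.card ψ.range = 720 := by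
    rw [MonoidHom.range_eq_top.mpr hsurj]
    rw [Subgroup.card_top, Nat.card_eq_fintype_card, Fintype.card_perm, Fintype.card_coe, hE]
    rfl
  have hker : Nat.card ψ.ker = 3 := by
    rw [← h3]
    apply Nat.card_congr
    refine ⟨fun g => ⟨((g.1 : ↥(stabilizer ↥M24 E)) : ↥M24).1, g.1.1.2, ?_⟩, fun g => ⟨⟨⟨g.1, g.2.1⟩, ?_⟩, ?_⟩, ?_, ?_⟩
    · intro p hp
      have h1 : ψ g.1 = 1 := g.2
      have := congrArg (fun f : Equiv.Perm ↥E => (f ⟨p, hp⟩ : GolayPt)) h1
      exact this
    · rw [mem_stabilizer_iff]
      show g.1 • E = E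
      apply Finset.eq_of_subset_of_card_le
      · intro x hx
        obtain ⟨y, hy, rfl⟩ := Finset.mem_smul_finset.mp hx
        rw [Equiv.Perm.smul_def, g.2.2 y hy]
        exact hy
      · rw [Finset.card_smul_finset]
    · show ψ _ = 1
      apply Equiv.ext
      intro x
      apply Subtype.ext
      exact g.2.2 x.1 x.2
    · intro g
      rfl
    · intro g
      rfl
  have h1 := Subgroup.card_mul_index ψ.ker
  rw [Subgroup.index_ker, hker, hrange] at h1
  omega

end Cfsg.Agent.Lib.M24X
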