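import Cfsg.Agent.Lib.M24X.TAData
import Cfsg.Agent.Lib.M24X.Cent
import Cfsg.Agent.Lib.ThreeTrans.SplitData

/-!
# The centraliser of an involution of `M24` fixing an octad
-/

set_option autoImplicit false
set_option maxRecDepth 100000
set_option linter.unusedSimpArgs false
set_option linter.unusedVariables false
set_option linter.unusedSectionVars false
set_option linter.style.haveILetI false

namespace Cfsg.Agent.Lib.M24X.TA

open Cfsg Cfsg.Agent.Lib.Golay Cfsg.Agent.Lib.TwoFusion Cfsg.Agent.Lib.ThreeTrans.LGL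
open Matrix

/-- Permutations of the points. -/
abbrev Pm := Equiv.Perm GolayPt

/-- All lists are in `M24`. -/
def okL (L : List (List ℕ)) : Bool := L.all (fun l => isPerm l && autCheck l)

/-- Closure under multiplication. -/
def closedL (L : List (List ℕ)) : Bool := L.all fun a => L.all fun b => L.contains (mulL a b)

theorem okL_perm {L : List (List ℕ)} (h : okL L = true) {l : List ℕ} (hl : l ∈ L) : isPerm l = true := by
  have := List.all_eq_true.mp h l hl
  simp only [Bool.and_eq_true] at this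
  exact this.1

theorem okL_aut {L : List (List ℕ)} (h : okL L = true) {l : List ℕ} (hl : l ∈ L) : autCheck l = true := by
  have := List.all_eq_true.mp h l hl
  simp only [Bool.and_eq_true] at this
  exact this.2

theorem okL_mem {L : List (List ℕ)} (h : okL L = true) {l : List ℕ} (hl : l ∈ L) : perm l ∈ M24 :=
  perm_mem_M24 (okL_perm h hl) (okL_aut h hl)

/-- The subgroup of a closed list. -/
def listSub (L : List (List ℕ)) (hv : okL L = true) (h1 : idL ∈ L) (hc : closedL L = true) : Subgroup Pm where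
  carrier := {g | ∃ l ∈ L, g = perm l}
  mul_mem' := by
    rintro _ _ ⟨a, ha, rfl⟩ ⟨b, hb, rfl⟩
    refine ⟨mulL a b, ?_, (perm_mulL (okL_perm hv ha) (okL_perm hv hb)).symm⟩
    have := List.all_eq_true.mp (List.all_eq_true.mp hc a ha) b hb
    simpa only [List.contains_iff_mem] using this
  one_mem' := ⟨idL, h1, perm_idL.symm⟩
  inv_mem' := by
    rintro _ ⟨a, ha, rfl⟩
    have hpow : ∀ n : ℕ, ∃ m ∈ L, (perm a) ^ n = perm m := by
      intro n
      induction n with
      | zero => exact ⟨idL, h1, by rw [pow_zero, perm_idL]⟩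
      | succ n ih =>
        obtain ⟨m, hm, e⟩ := ih
        refine ⟨mulL m a, ?_, ?_⟩
        · have := List.all_eq_true.mp (List.all_eq_true.mp hc m hm) a ha
          simpa only [List.contains_iff_mem] using this
        · rw [pow_succ, e, perm_mulL (okL_perm hv hm) (okL_perm hv ha)]
    have ho : 0 < orderOf (perm a) := orderOf_pos _
    obtain ⟨m, hm, e⟩ := hpow (orderOf (perm a) - 1)
    refine ⟨m, hm, ?_⟩
    rw [← e]
    apply inv_eq_of_mul_eq_one_left
    rw [← pow_succ, Nat.sub_add_cancel ho, pow_orderOf_eq_one]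

/-- The set of permutations of a list. -/
def genS (G : List (List ℕ)) : Set Pm := {x | ∃ g ∈ G, x = perm g}

theorem inv_apply_self_local (f : Pm) (x : GolayPt) : f⁻¹ (f x) = x := by
  rw [← Equiv.Perm.mul_apply, inv_mul_cancel, Equiv.Perm.one_apply]

/-- Closure under multiplication by generators. -/
def closedG (G L : List (List ℕ)) : Bool := L.all fun a => G.all fun g => L.contains (mulL a g)

/-- Each element of the list is obtained from the earlier ones by a generator. -/
def chainG (G : List (List ℕ)) : List (List ℕ) → List (List ℕ) → Bool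
  | _, [] => true
  | seen, x :: xs =>
    ((x == idL) || G.any (fun g => seen.contains (mulL x g))) && chainG G (x :: seen) xs

theorem chain_mem {G : List (List ℕ)} (hG : okL G = true) (H : Subgroup Pm) (hGH : ∀ g ∈ G, perm g ∈ H) :
    ∀ (xs seen : List (List ℕ)), (∀ x ∈ xs, isPerm x = true) → (∀ s ∈ seen, isPerm s = true ∧ perm s ∈ H) →
      chainG G seen xs = true → ∀ x ∈ xs, perm x ∈ H := by
  intro xs
  induction xs with
  | nil => intro seen _ _ _ x hx; simp at hx
  | cons x xs ih =>
    intro seen hP hS hc y hy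
    simp only [chainG, Bool.and_eq_true, Bool.or_eq_true] at hc
    obtain ⟨h1, h2⟩ := hc
    have hx : perm x ∈ H := by
      rcases h1 with h1 | h1
      · have : x = idL := by simpa using h1
        rw [this, perm_idL]; exact H.one_mem
      · rw [List.any_eq_true] at h1
        obtain ⟨g, hg, hm⟩ := h1
        simp only [List.contains_iff_mem] at hm
        have pg := okL_perm hG hg
        have px := hP x (by simp)
        have h3 := (hS _ hm).2
        rw [perm_mulL px pg] at h3
        have h4 : perm x = perm x * perm g * (perm g)⁻¹ := by group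
        rw [h4]
        exact H.mul_mem h3 (H.inv_mem (hGH g hg))
    rcases List.mem_cons.1 hy with rfl | hy
    · exact hx
    · refine ih (y :: seen |>.tail.cons x) (fun z hz => hP z (List.mem_cons_of_mem _ hz)) ?_ h2 y hy
      intro s hs
      rcases List.mem_cons.1 (by simpa using hs) with rfl | hs
      · exact ⟨hP _ (by simp), hx⟩
      · exact hS s hs

theorem closedG_mem {G L : List (List ℕ)} (hL : okL L = true) (hG : okL G = true) (hc : closedG G L = true) :
    ∀ x ∈ Subgroup.closure (genS G), ∀ a ∈ L, ∃ b ∈ L, perm a * x = perm b := by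
  intro x hx
  induction hx using Subgroup.closure_induction with
  | mem x hx =>
    obtain ⟨g, hg, rfl⟩ := hx
    intro a ha
    refine ⟨mulL a g, ?_, (perm_mulL (okL_perm hL ha) (okL_perm hG hg)).symm⟩
    have := List.all_eq_true.mp (List.all_eq_true.mp hc a ha) g hg
    simpa only [List.contains_iff_mem] using this
  | one => intro a ha; exact ⟨a, ha, mul_one _⟩
  | mul x y _ _ hx hy =>
    intro a ha
    obtain ⟨b, hb, e⟩ := hx a ha
    obtain ⟨c, hc', e'⟩ := hy b hb
    exact ⟨c, hc', by rw [← mul_assoc, e, e']⟩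
  | inv x _ hx =>
    intro a ha
    have hpow : ∀ n : ℕ, ∃ b ∈ L, perm a * x ^ n = perm b := by
      intro n
      induction n with
      | zero => exact ⟨a, ha, by simp⟩
      | succ n ih =>
        obtain ⟨b, hb, e⟩ := ih
        obtain ⟨c, hc', e'⟩ := hx b hb
        exact ⟨c, hc', by rw [pow_succ, ← mul_assoc, e, e']⟩
    have ho : 0 < orderOf x := orderOf_pos _
    obtain ⟨b, hb, e⟩ := hpow (orderOf x - 1)
    refine ⟨b, hb, ?_⟩
    rw [← e]
    congr 1
    apply inv_eq_of_mul_eq_one_left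
    rw [← pow_succ, Nat.sub_add_cancel ho, pow_orderOf_eq_one]

/-- The description of the generated subgroup. -/
theorem mem_closure_iff {G L : List (List ℕ)} (hL : okL L = true) (hG : okL G = true) (h1 : idL ∈ L)
    (hc : closedG G L = true) (hch : chainG G [] L = true) (x : Pm) :
    x ∈ Subgroup.closure (genS G) ↔ ∃ l ∈ L, x = perm l := by
  constructor
  · intro hx
    obtain ⟨b, hb, e⟩ := closedG_mem hL hG hc x hx idL h1
    rw [perm_idL, one_mul] at e
    exact ⟨b, hb, e⟩
  · rintro ⟨l, hl, rfl⟩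
    exact chain_mem hG _ (fun g hg => Subgroup.subset_closure (show perm g ∈ genS G from ⟨g, hg, rfl⟩)) L [] (fun x hx => okL_perm hL hx)
      (by simp) hch l hl

/-- The subgroup of a list closed under generators. -/
def listSubG (L G : List (List ℕ)) (hL : okL L = true) (hG : okL G = true) (h1 : idL ∈ L)
    (hc : closedG G L = true) (hch : chainG G [] L = true) : Subgroup Pm :=
  (Subgroup.closure (genS G)).copy {g | ∃ l ∈ L, g = perm l}
    (Set.ext fun x => (mem_closure_iff hL hG h1 hc hch x).symm)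

theorem listSubG_eq (L G : List (List ℕ)) (hL : okL L = true) (hG : okL G = true) (h1 : idL ∈ L)
    (hc : closedG G L = true) (hch : chainG G [] L = true) :
    listSubG L G hL hG h1 hc hch = Subgroup.closure (genS G) :=
  Subgroup.copy_eq _ _ _

theorem taQ_ok : okL taQ = true := by decide +kernel
theorem taK_ok : okL taK = true := by decide +kernel
theorem taE_ok : okL taE = true := by decide +kernel
theorem taQg_ok : okL taQg = true := by decide +kernel
theorem taKg_ok : okL taKg = true := by decide +kernel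
theorem taQ_cl : closedG taQg taQ = true := by decide +kernel
theorem taK_cl : closedG taKg taK = true := by decide +kernel
theorem taQ_ch : chainG taQg [] taQ = true := by decide +kernel
theorem taK_ch : chainG taKg [] taK = true := by decide +kernel
theorem taE_cl : closedL taE = true := by decide +kernel
theorem taQ_id : idL ∈ taQ := by decide +kernel
theorem taK_id : idL ∈ taK := by decide +kernel
theorem taE_id : idL ∈ taE := by decide +kernel
theorem taQ_nd : taQ.Nodup := by decide +kernel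
theorem taK_nd : taK.Nodup := by decide +kernel
theorem taE_nd : taE.Nodup := by decide +kernel
theorem taE_sub : taE.all (fun l => taQ.contains l) = true := by decide +kernel
theorem taQ_len : taQ.length = 128 := by decide +kernel
theorem taK_len : taK.length = 168 := by decide +kernel
theorem taE_len : taE.length = 16 := by decide +kernel

/-- The extraspecial subgroup. -/
def Q0 : Subgroup Pm := listSubG taQ taQg taQ_ok taQg_ok taQ_id taQ_cl taQ_ch

/-- The complement. -/
def K0 : Subgroup Pm := listSubG taK taKg taK_ok taKg_ok taK_id taK_cl taK_ch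

/-- The elementary abelian subgroup. -/
def E0 : Subgroup Pm := listSub taE taE_ok taE_id taE_cl

theorem mem_Q0 {g : Pm} : g ∈ Q0 ↔ ∃ l ∈ taQ, g = perm l := Iff.rfl
theorem mem_K0 {g : Pm} : g ∈ K0 ↔ ∃ l ∈ taK, g = perm l := Iff.rfl
theorem mem_E0 {g : Pm} : g ∈ E0 ↔ ∃ l ∈ taE, g = perm l := Iff.rfl

theorem Q0_eq : Q0 = Subgroup.closure (genS taQg) := listSubG_eq _ _ _ _ _ _ _

theorem K0_eq : K0 = Subgroup.closure (genS taKg) := listSubG_eq _ _ _ _ _ _ _

theorem Q0_le : Q0 ≤ M24 := by
  rintro _ ⟨l, hl, rfl⟩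
  exact okL_mem taQ_ok hl

theorem K0_le : K0 ≤ M24 := by
  rintro _ ⟨l, hl, rfl⟩
  exact okL_mem taK_ok hl

theorem E0_le_Q0 : E0 ≤ Q0 := by
  rintro _ ⟨l, hl, rfl⟩
  refine ⟨l, ?_, rfl⟩
  have := List.all_eq_true.mp taE_sub l hl
  simpa only [List.contains_iff_mem] using this

theorem card_Q0 : Nat.card Q0 = 128 := by
  rw [card_of_listing Q0 (fun l hl => okL_perm taQ_ok hl) taQ_nd (fun g => Iff.rfl), taQ_len]

theorem card_K0 : Nat.card K0 = 168 := by
  rw [card_of_listing K0 (fun l hl => okL_perm taK_ok hl) taK_nd (fun g => Iff.rfl), taK_len]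

theorem card_E0 : Nat.card E0 = 16 := by
  rw [card_of_listing E0 (fun l hl => okL_perm taE_ok hl) taE_nd (fun g => Iff.rfl), taE_len]

theorem beq_eq {a b : List ℕ} (h : (a == b) = true) : a = b := by simpa using h

theorem tA_perm : isPerm tA = true := isPerm_tA

/-- The tests for the description of `Q`. -/
theorem comm_chk : taQ.all (fun a => taQg.all fun b =>
    (mulL a b == mulL b a) || (mulL a b == mulL tA (mulL b a))) = true := by decide +kernel

theorem sq_chk : taQ.all (fun a => (mulL a a == idL) || (mulL a a == tA)) = true := by decide +kernel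

theorem cen_chk : taQ.all (fun x => !(taQg.all fun q => mulL q x == mulL x q) || (x == idL) || (x == tA)) = true := by
  decide +kernel

theorem taQg_sub : ∀ g ∈ taQg, g ∈ taQ := by
  have h : taQg.all (fun l => taQ.contains l) = true := by decide +kernel
  intro g hg
  have := List.all_eq_true.mp h g hg
  simpa only [List.contains_iff_mem] using this

theorem zc_chk : taQ.all (fun q => mulL q tA == mulL tA q) = true := by decide +kernel

theorem noncomm_chk : (taQ.any fun a => taQg.any fun b => !(mulL a b == mulL b a)) = true := by decide +kernel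

theorem tA_mem : tA ∈ taQ := by decide +kernel

theorem tA_sq : mulL tA tA = idL := by decide +kernel

theorem tA_ne : tA ≠ idL := by decide +kernel

theorem perm_eq_of_list {a b : List ℕ} (ha : isPerm a = true) (hb : isPerm b = true) (a' b' : List ℕ)
    (ha' : isPerm a' = true) (hb' : isPerm b' = true) (h : mulL a b = mulL a' b') :
    perm a * perm b = perm a' * perm b' := by
  rw [← perm_mulL ha hb, ← perm_mulL ha' hb', h]

theorem rel_mul {a z x y : Pm} (hz : z * z = 1) (hzx : x * z = z * x)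
    (h1 : a * x = x * a ∨ a * x = z * (x * a)) (h2 : a * y = y * a ∨ a * y = z * (y * a)) :
    a * (x * y) = x * y * a ∨ a * (x * y) = z * (x * y * a) := by
  rcases h1 with h1 | h1 <;> rcases h2 with h2 | h2
  · left
    calc a * (x * y) = (a * x) * y := by group
      _ = x * (a * y) := by rw [h1]; group
      _ = x * y * a := by rw [h2]; group
  · right
    calc a * (x * y) = (a * x) * y := by group
      _ = x * (a * y) := by rw [h1]; group
      _ = (x * z) * (y * a) := by rw [h2]; group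
      _ = z * (x * y * a) := by rw [hzx]; group
  · right
    calc a * (x * y) = (a * x) * y := by group
      _ = z * x * (a * y) := by rw [h1]; group
      _ = z * (x * y * a) := by rw [h2]; group
  · left
    calc a * (x * y) = (a * x) * y := by group
      _ = z * x * (a * y) := by rw [h1]; group
      _ = z * (x * z) * (y * a) := by rw [h2]; group
      _ = (z * z) * (x * y * a) := by rw [hzx]; group
      _ = x * y * a := by rw [hz, one_mul]

theorem rel_inv {a z x : Pm} (hz : z * z = 1) (hzx : x * z = z * x)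
    (h : a * x = x * a ∨ a * x = z * (x * a)) :
    a * x⁻¹ = x⁻¹ * a ∨ a * x⁻¹ = z * (x⁻¹ * a) := by
  rcases h with h | h
  · left
    rw [mul_inv_eq_iff_eq_mul, mul_assoc, h, ← mul_assoc, inv_mul_cancel, one_mul]
  · right
    have hxz : x⁻¹ * z * x = z := by rw [mul_assoc, ← hzx, inv_mul_cancel_left]
    have ha : z * x * a * x⁻¹ = a := by
      rw [mul_assoc z, ← h, mul_inv_cancel_right]
    calc a * x⁻¹ = (z * z) * a * x⁻¹ := by rw [hz, one_mul]
      _ = z * (x⁻¹ * z * x) * a * x⁻¹ := by rw [hxz]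
      _ = z * (x⁻¹ * (z * x * a * x⁻¹)) := by group
      _ = z * (x⁻¹ * a) := by rw [ha]

/-- The commutator relation, with an element and an arbitrary element of `Q`. -/
theorem comm_of_mem {a : List ℕ} (ha : a ∈ taQ) {b : Pm} (hb : b ∈ Q0) :
    perm a * b * (perm a)⁻¹ * b⁻¹ = 1 ∨ perm a * b * (perm a)⁻¹ * b⁻¹ = perm tA := by
  have pa := okL_perm taQ_ok ha
  have hz : perm tA * perm tA = 1 := by
    rw [← perm_mulL tA_perm tA_perm, tA_sq, perm_idL]
  have hzc : ∀ q ∈ Q0, q * perm tA = perm tA * q := by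
    rintro _ ⟨q, hq, rfl⟩
    exact perm_eq_of_list (okL_perm taQ_ok hq) tA_perm _ _ tA_perm (okL_perm taQ_ok hq)
      (beq_eq (List.all_eq_true.mp zc_chk q hq))
  have hazc := hzc (perm a) ⟨a, ha, rfl⟩
  suffices H : perm a * b = b * perm a ∨ perm a * b = perm tA * (b * perm a) by
    rcases H with h | h
    · left
      rw [h]; group
    · right
      rw [h]; group
  rw [Q0_eq] at hb
  have hzb : ∀ y ∈ Subgroup.closure (genS taQg), y * perm tA = perm tA * y := by
    intro y hy
    rw [← Q0_eq] at hy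
    exact hzc y hy
  induction hb using Subgroup.closure_induction with
  | mem x hx =>
    obtain ⟨g, hg, rfl⟩ := hx
    have pg := okL_perm taQg_ok hg
    have h := List.all_eq_true.mp (List.all_eq_true.mp comm_chk a ha) g hg
    rw [Bool.or_eq_true] at h
    rcases h with h | h
    · left
      exact perm_eq_of_list pa pg _ _ pg pa (beq_eq h)
    · right
      have h1 := beq_eq h
      rw [← perm_mulL pa pg, h1, perm_mulL tA_perm (isPerm_mulL pg pa), perm_mulL pg pa]
  | one => left; simp
  | mul x y hx hy ihx ihy =>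
    exact rel_mul hz (hzb x hx) ihx ihy
  | inv x hx ih =>
    exact rel_inv hz (hzb x hx) ih

/-- The elementwise description. -/
theorem es_Q0 : ES Q0 (perm tA) where
  z_mem := ⟨tA, tA_mem, rfl⟩
  z_ne := by
    intro h
    rw [← perm_idL] at h
    exact tA_ne (perm_inj tA_perm isPerm_idL h)
  z_sq := by
    rw [← perm_mulL tA_perm tA_perm, tA_sq, perm_idL]
  z_central := by
    rintro _ ⟨q, hq, rfl⟩
    exact perm_eq_of_list (okL_perm taQ_ok hq) tA_perm _ _ tA_perm (okL_perm taQ_ok hq)
      (beq_eq (List.all_eq_true.mp zc_chk q hq))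
  comm := by
    rintro _ ⟨a, ha, rfl⟩ b hb
    exact comm_of_mem ha hb
  sq := by
    rintro _ ⟨a, ha, rfl⟩
    have pa := okL_perm taQ_ok ha
    have h := List.all_eq_true.mp sq_chk a ha
    rw [Bool.or_eq_true] at h
    rw [← perm_mulL pa pa]
    rcases h with h | h
    · left
      rw [beq_eq h, perm_idL]
    · right
      rw [beq_eq h]
  center := by
    rintro _ ⟨x, hx, rfl⟩ h
    have px := okL_perm taQ_ok hx
    have h1 := List.all_eq_true.mp cen_chk x hx
    have h2 : (taQg.all fun q => mulL q x == mulL x q) = true := by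
      rw [List.all_eq_true]
      intro q hq
      have pq := okL_perm taQg_ok hq
      have h3 := h (perm q) ⟨q, taQg_sub q hq, rfl⟩
      rw [← perm_mulL pq px, ← perm_mulL px pq] at h3
      have := perm_inj (isPerm_mulL pq px) (isPerm_mulL px pq) h3
      simpa using this
    rw [h2] at h1
    simp only [Bool.not_true, Bool.false_or, Bool.or_eq_true] at h1
    rcases h1 with h1 | h1
    · left
      rw [beq_eq h1, perm_idL]
    · right
      rw [beq_eq h1]

theorem noncomm_Q0 : ∃ a ∈ Q0, ∃ b ∈ Q0, a * b ≠ b * a := by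
  have h := noncomm_chk
  rw [List.any_eq_true] at h
  obtain ⟨a, ha, h⟩ := h
  rw [List.any_eq_true] at h
  obtain ⟨b, hb, h⟩ := h
  refine ⟨perm a, ⟨a, ha, rfl⟩, perm b, ⟨b, taQg_sub b hb, rfl⟩, ?_⟩
  have pa := okL_perm taQ_ok ha
  have pb := okL_perm taQg_ok hb
  intro e
  rw [← perm_mulL pa pb, ← perm_mulL pb pa] at e
  have := perm_inj (isPerm_mulL pa pb) (isPerm_mulL pb pa) e
  simp [this] at h

/-! ### Normalization -/

theorem Ki_chk : (taK.zip taKi).all (fun p => mulL p.1 p.2 == idL) = true := by decide +kernel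

theorem Ki_len : taK.length = taKi.length := by decide +kernel

theorem Ki_ok : okL taKi = true := by decide +kernel

theorem norm_chk : (taK.zip taKi).all (fun p => taQg.all fun q => taQ.contains (mulL (mulL p.1 q) p.2)) = true := by
  decide +kernel

theorem K_norm_Q {k q : Pm} (hk : k ∈ K0) (hq : q ∈ Q0) : k * q * k⁻¹ ∈ Q0 := by
  obtain ⟨k', hk', rfl⟩ := hk
  obtain ⟨i, hi, e⟩ := List.mem_iff_getElem.1 hk'
  have hi' : i < taKi.length := by rw [← Ki_len]; exact hi
  have hz : (k', taKi[i]) ∈ taK.zip taKi := by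
    rw [← e]
    exact List.mem_iff_getElem.2 ⟨i, by simp [List.length_zip, ← Ki_len, hi], by simp⟩
  have hi2 : taKi[i] ∈ taKi := List.getElem_mem hi'
  have h1 := beq_eq (List.all_eq_true.mp Ki_chk _ hz)
  simp only [List.contains_iff_mem] at h1
  have pk := okL_perm taK_ok hk'
  have pi := okL_perm Ki_ok hi2
  have hinv : perm taKi[i] = (perm k')⁻¹ := perm_inv_of_mul pk pi h1
  suffices H : Q0 ≤ Q0.comap (MulAut.conj (perm k')).toMonoidHom from H hq
  conv_lhs => rw [Q0_eq]
  rw [Subgroup.closure_le]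
  rintro _ ⟨q', hq', rfl⟩
  have h2 := List.all_eq_true.mp (List.all_eq_true.mp norm_chk _ hz) q' hq'
  simp only [List.contains_iff_mem] at h2
  have pq := okL_perm taQg_ok hq'
  refine ⟨_, h2, ?_⟩
  rw [perm_mulL (isPerm_mulL pk pq) pi, perm_mulL pk pq, hinv]
  rfl

/-! ### The decomposition of the centralizer -/

/-- The commuting test. -/
def commTA (l : List ℕ) : Bool := mulL l tA == mulL tA l

theorem commTA_of {l : List ℕ} (hl : isPerm l = true) (h : perm l * perm tA = perm tA * perm l) : commTA l = true := by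
  rw [← perm_mulL hl tA_perm, ← perm_mulL tA_perm hl] at h
  have := perm_inj (isPerm_mulL hl tA_perm) (isPerm_mulL tA_perm hl) h
  simp [commTA, this]

theorem comm_app {g : Pm} (h : g * perm tA = perm tA * g) (p : GolayPt) : g (perm tA p) = perm tA (g p) := by
  have := congrArg (fun f : Pm => f p) h
  simpa [Equiv.Perm.mul_apply] using this

theorem moved_of {g : Pm} (h : g * perm tA = perm tA * g) {n : ℕ} (hn : n < 24) (hm : lk tA n ≠ n) :
    lk tA (idx (g (pt n))) ≠ idx (g (pt n)) := by
  intro e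
  have h1 : perm tA (g (pt n)) = g (pt n) := by
    rw [perm_apply tA_perm, Cfsg.Agent.Lib.Golay.lp, e, pt_idx]
  rw [← comm_app h] at h1
  have h2 := g.injective h1
  rw [perm_pt tA_perm hn] at h2
  have h3 := congrArg idx h2
  rw [idx_pt (isPerm_lt tA_perm hn), idx_pt hn] at h3
  exact hm h3

theorem E_cover : ∀ i : Fin 24, lk tA i ≠ i → (i : ℕ) ∈ taE.map (fun l => lk l 23) := by decide +kernel

theorem T2_cover : ∀ i : Fin 24, lk tA i ≠ i → (i : ℕ) ≠ 23 → (i : ℕ) ≠ 0 →
    (i : ℕ) ∈ taT2.map (fun p => lk (mulL p.1 p.2) 1) := by decide +kernel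

theorem T2_chk : taT2.all (fun p => taQ.contains p.1 && taK.contains p.2 && Nat.beq (lk (mulL p.1 p.2) 23) 23 &&
    Nat.beq (lk (mulL p.1 p.2) 0) 0 && commTA (mulL p.1 p.2)) = true := by decide +kernel

theorem Z_chk : taZ.all (fun p => taQ.contains p.1 && taK.contains p.2) = true := by decide +kernel

theorem Z_cos : coset4All idL (fun l => !commTA l || (taZ.map fun p => mulL p.1 p.2).contains l) = true := by
  decide +kernel

theorem lk_tA_23 : lk tA 23 = 0 := by decide +kernel
theorem lk_tA_1 : lk tA 1 = 2 := by decide +kernel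
theorem lk_tA_23_ne : lk tA 23 ≠ 23 := by decide +kernel
theorem lk_tA_1_ne : lk tA 1 ≠ 1 := by decide +kernel

theorem aut_idL : autCheck idL = true := by decide +kernel

theorem perm_idL_pt (p : GolayPt) : perm idL p = p := by
  rw [perm_idL]; rfl

/-- The decomposition. -/
theorem dec_C {c : Pm} (hc : c ∈ M24) (hcz : c * perm tA = perm tA * c) : ∃ q ∈ Q0, ∃ k ∈ K0, c = q * k := by
  -- first step
  have hm1 := moved_of hcz (n := 23) (by norm_num) lk_tA_23_ne
  have hcov1 := E_cover ⟨idx (c (pt 23)), idx_lt _⟩ hm1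
  obtain ⟨e, he, hee⟩ := List.mem_map.1 hcov1
  simp only at hee
  have pe := okL_perm taE_ok he
  have heQ : perm e ∈ Q0 := E0_le_Q0 ⟨e, he, rfl⟩
  have heM : perm e ∈ M24 := Q0_le heQ
  have hecomm : perm e * perm tA = perm tA * perm e := es_Q0.z_central _ heQ
  have he23 : perm e (pt 23) = c (pt 23) := by
    rw [perm_pt pe (by norm_num), hee, pt_idx]
  obtain ⟨c₁, hc₁⟩ : ∃ c₁, c₁ = (perm e)⁻¹ * c := ⟨_, rfl⟩
  have hc₁M : c₁ ∈ M24 := by
    rw [hc₁]; exact M24.mul_mem (M24.inv_mem heM) hc
  have hc₁z : c₁ * perm tA = perm tA * c₁ := by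
    rw [hc₁]
    have : (perm e)⁻¹ * perm tA = perm tA * (perm e)⁻¹ := by
      rw [inv_mul_eq_iff_eq_mul, ← mul_assoc, hecomm, mul_assoc, mul_inv_cancel, mul_one]
    rw [mul_assoc, hcz, ← mul_assoc, this, mul_assoc]
  have hc₁23 : c₁ (pt 23) = pt 23 := by
    rw [hc₁, Equiv.Perm.mul_apply, ← he23, inv_apply_self_local]
  have hpt0 : perm tA (pt 23) = pt 0 := by
    rw [perm_pt tA_perm (by norm_num), lk_tA_23]
  have hpt2 : perm tA (pt 1) = pt 2 := by
    rw [perm_pt tA_perm (by norm_num), lk_tA_1]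
  have hc₁0 : c₁ (pt 0) = pt 0 := by
    rw [← hpt0, comm_app hc₁z, hc₁23]
  -- second step
  have hm2 := moved_of hc₁z (n := 1) (by norm_num) lk_tA_1_ne
  have hne23 : idx (c₁ (pt 1)) ≠ 23 := by
    intro h
    have h1 : c₁ (pt 1) = pt 23 := by
      rw [← pt_idx (c₁ (pt 1)), h]
    rw [← hc₁23] at h1
    have h2 := congrArg idx (c₁.injective h1)
    rw [idx_pt (by norm_num), idx_pt (by norm_num)] at h2
    norm_num at h2
  have hne0 : idx (c₁ (pt 1)) ≠ 0 := by
    intro h
    have h1 : c₁ (pt 1) = pt 0 := by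
      rw [← pt_idx (c₁ (pt 1)), h]
    rw [← hc₁0] at h1
    have h2 := congrArg idx (c₁.injective h1)
    rw [idx_pt (by norm_num), idx_pt (by norm_num)] at h2
    norm_num at h2
  have hcov2 := T2_cover ⟨idx (c₁ (pt 1)), idx_lt _⟩ hm2 hne23 hne0
  obtain ⟨⟨q₂, k₂⟩, h2mem, h2e⟩ := List.mem_map.1 hcov2
  simp only at h2e
  have hchk := List.all_eq_true.mp T2_chk _ h2mem
  simp only [Bool.and_eq_true, List.contains_iff_mem, Nat.beq_eq] at hchk
  obtain ⟨⟨⟨⟨hq₂, hk₂⟩, h23⟩, h0⟩, hcm⟩ := hchk
  have pq₂ := okL_perm taQ_ok hq₂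
  have pk₂ := okL_perm taK_ok hk₂
  have pt₂ := isPerm_mulL pq₂ pk₂
  have ht₂M : perm (mulL q₂ k₂) ∈ M24 := by
    rw [perm_mulL pq₂ pk₂]
    exact M24.mul_mem (okL_mem taQ_ok hq₂) (okL_mem taK_ok hk₂)
  have ht₂z : perm (mulL q₂ k₂) * perm tA = perm tA * perm (mulL q₂ k₂) := by
    have h3 := beq_eq hcm
    rw [← perm_mulL pt₂ tA_perm, h3, perm_mulL tA_perm pt₂]
  have ht₂1 : perm (mulL q₂ k₂) (pt 1) = c₁ (pt 1) := by
    rw [perm_pt pt₂ (by norm_num), h2e, pt_idx]
  have ht₂23 : perm (mulL q₂ k₂) (pt 23) = pt 23 := by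
    rw [perm_pt pt₂ (by norm_num), h23]
  have ht₂0 : perm (mulL q₂ k₂) (pt 0) = pt 0 := by
    rw [perm_pt pt₂ (by norm_num), h0]
  obtain ⟨c₂, hc₂⟩ : ∃ c₂, c₂ = (perm (mulL q₂ k₂))⁻¹ * c₁ := ⟨_, rfl⟩
  have hc₂M : c₂ ∈ M24 := by
    rw [hc₂]; exact M24.mul_mem (M24.inv_mem ht₂M) hc₁M
  have hc₂z : c₂ * perm tA = perm tA * c₂ := by
    rw [hc₂]
    have : (perm (mulL q₂ k₂))⁻¹ * perm tA = perm tA * (perm (mulL q₂ k₂))⁻¹ := by
      rw [inv_mul_eq_iff_eq_mul, ← mul_assoc, ht₂z, mul_assoc, mul_inv_cancel, mul_one]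
    rw [mul_assoc, hc₁z, ← mul_assoc, this, mul_assoc]
  have hfix : ∀ n, perm (mulL q₂ k₂) (pt n) = pt n → c₁ (pt n) = pt n → c₂ (pt n) = pt n := by
    intro n h1 h2
    rw [hc₂, Equiv.Perm.mul_apply, h2, Equiv.Perm.inv_eq_iff_eq, h1]
  have hc₂23 := hfix 23 ht₂23 hc₁23
  have hc₂0 := hfix 0 ht₂0 hc₁0
  have hc₂1 : c₂ (pt 1) = pt 1 := by
    rw [hc₂, Equiv.Perm.mul_apply, ← ht₂1, inv_apply_self_local]
  have hc₂2 : c₂ (pt 2) = pt 2 := by
    rw [← hpt2, comm_app hc₂z, hc₂1]
  obtain ⟨l, hl, hle, hP⟩ := coset4_prop isPerm_idL aut_idL Z_cos hc₂M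
    (by rw [perm_idL_pt]; exact hc₂23) (by rw [perm_idL_pt]; exact hc₂0)
    (by rw [perm_idL_pt]; exact hc₂1) (by rw [perm_idL_pt]; exact hc₂2)
  rw [hle] at hc₂z
  rw [commTA_of hl hc₂z] at hP
  simp only [Bool.not_true, Bool.false_or, List.contains_iff_mem] at hP
  obtain ⟨⟨q₃, k₃⟩, hz3, hz3e⟩ := List.mem_map.1 hP
  simp only at hz3e
  have hchk3 := List.all_eq_true.mp Z_chk _ hz3
  simp only [Bool.and_eq_true, List.contains_iff_mem] at hchk3
  obtain ⟨hq₃, hk₃⟩ := hchk3
  have pq₃ := okL_perm taQ_ok hq₃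
  have pk₃ := okL_perm taK_ok hk₃
  have e1 : c = perm e * (perm (mulL q₂ k₂) * c₂) := by
    rw [hc₂, hc₁]; group
  rw [hle, ← hz3e, perm_mulL pq₃ pk₃, perm_mulL pq₂ pk₂] at e1
  have hk₂K : perm k₂ ∈ K0 := ⟨k₂, hk₂, rfl⟩
  have hk₃K : perm k₃ ∈ K0 := ⟨k₃, hk₃, rfl⟩
  have hq₂Q : perm q₂ ∈ Q0 := ⟨q₂, hq₂, rfl⟩
  have hq₃Q : perm q₃ ∈ Q0 := ⟨q₃, hq₃, rfl⟩
  refine ⟨perm e * perm q₂ * (perm k₂ * perm q₃ * (perm k₂)⁻¹), Q0.mul_mem (Q0.mul_mem heQ hq₂Q) (K_norm_Q hk₂K hq₃Q),
    perm k₂ * perm k₃, K0.mul_mem hk₂K hk₃K, ?_⟩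
  rw [e1]
  group

/-! ### Self-centralizing -/

theorem fix_cos : coset4All idL (fun l => !(taE.all fun e => Nat.beq (lk l (lk e 23)) (lk e 23)) || (l == idL)) = true := by
  decide +kernel

theorem moved_23 : lk tA 23 ≠ 23 := lk_tA_23_ne

theorem E_cover' : ∀ i : ℕ, i < 24 → lk tA i ≠ i → ∃ e ∈ taE, lk e 23 = i := by
  intro i hi hm
  have := E_cover ⟨i, hi⟩ hm
  obtain ⟨e, he, h⟩ := List.mem_map.1 this
  exact ⟨e, he, h⟩

theorem moved_0 : lk tA 0 ≠ 0 := by decide +kernel
theorem moved_1 : lk tA 1 ≠ 1 := by decide +kernel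
theorem moved_2 : lk tA 2 ≠ 2 := by decide +kernel

theorem self_cent {x : Pm} (hx : x ∈ M24) (hc : ∀ q ∈ Q0, q * x = x * q) : x ∈ Q0 := by
  have hcz : x * perm tA = perm tA * x := (hc _ es_Q0.z_mem).symm
  have hm1 := moved_of hcz (n := 23) (by norm_num) lk_tA_23_ne
  have hcov1 := E_cover ⟨idx (x (pt 23)), idx_lt _⟩ hm1
  obtain ⟨e, he, hee⟩ := List.mem_map.1 hcov1
  simp only at hee
  have pe := okL_perm taE_ok he
  have heQ : perm e ∈ Q0 := E0_le_Q0 ⟨e, he, rfl⟩
  have heM : perm e ∈ M24 := Q0_le heQ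
  have he23 : perm e (pt 23) = x (pt 23) := by
    rw [perm_pt pe (by norm_num), hee, pt_idx]
  obtain ⟨y, hy⟩ : ∃ y, y = (perm e)⁻¹ * x := ⟨_, rfl⟩
  have hyM : y ∈ M24 := by
    rw [hy]; exact M24.mul_mem (M24.inv_mem heM) hx
  have hy23 : y (pt 23) = pt 23 := by
    rw [hy, Equiv.Perm.mul_apply, ← he23, inv_apply_self_local]
  -- `E` is abelian
  have hEab : ∀ a ∈ taE, ∀ b ∈ taE, perm a * perm b = perm b * perm a := by
    have hchk : taE.all (fun a => taE.all fun b => mulL a b == mulL b a) = true := by decide +kernel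
    intro a ha b hb
    exact perm_eq_of_list (okL_perm taE_ok ha) (okL_perm taE_ok hb) _ _ (okL_perm taE_ok hb) (okL_perm taE_ok ha)
      (beq_eq (List.all_eq_true.mp (List.all_eq_true.mp hchk a ha) b hb))
  have hfixE : ∀ e' ∈ taE, y (pt (lk e' 23)) = pt (lk e' 23) := by
    intro e' he'
    have pe' := okL_perm taE_ok he'
    have h1 : perm e' * x = x * perm e' := hc _ (E0_le_Q0 ⟨e', he', rfl⟩)
    have h2 : perm e' * y = y * perm e' := by
      rw [hy]
      have h3 : perm e' * (perm e)⁻¹ = (perm e)⁻¹ * perm e' := by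
        rw [mul_inv_eq_iff_eq_mul, mul_assoc, hEab e' he' e he, ← mul_assoc, inv_mul_cancel, one_mul]
      rw [← mul_assoc, h3, mul_assoc, h1, mul_assoc]
    have h3 := congrArg (fun f : Pm => f (pt 23)) h2
    simp only [Equiv.Perm.mul_apply, hy23] at h3
    rw [perm_pt pe' (by norm_num)] at h3
    exact h3.symm
  have hfx : ∀ i, i < 24 → lk tA i ≠ i → y (pt i) = pt i := by
    intro i hi hm
    obtain ⟨e', he', h⟩ := E_cover' i hi hm
    rw [← h]
    exact hfixE e' he'
  obtain ⟨l, hl, hle, hP⟩ := coset4_prop isPerm_idL aut_idL fix_cos hyM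
    (by rw [perm_idL_pt]; exact hy23) (by rw [perm_idL_pt]; exact hfx 0 (by norm_num) moved_0)
    (by rw [perm_idL_pt]; exact hfx 1 (by norm_num) moved_1) (by rw [perm_idL_pt]; exact hfx 2 (by norm_num) moved_2)
  have hall : (taE.all fun e => Nat.beq (lk l (lk e 23)) (lk e 23)) = true := by
    rw [List.all_eq_true]
    intro e' he'
    have pe' := okL_perm taE_ok he'
    have hlt := isPerm_lt pe' (k := 23) (by norm_num)
    have h1 := hfixE e' he'
    rw [hle, perm_pt hl hlt] at h1
    have h2 := congrArg idx h1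
    rw [idx_pt (isPerm_lt hl hlt), idx_pt hlt] at h2
    simpa using h2
  rw [hall] at hP
  simp only [Bool.not_true, Bool.false_or] at hP
  have hl1 := beq_eq hP
  have hy1 : y = 1 := by rw [hle, hl1, perm_idL]
  have : x = perm e := by
    rw [hy] at hy1
    have := inv_mul_eq_one.1 hy1
    exact this.symm
  rw [this]
  exact heQ

/-! ### The conjugate of the involution -/

theorem taG_perm : isPerm taG = true := by decide +kernel
theorem taG_aut : autCheck taG = true := by decide +kernel
theorem taG_inv_perm : isPerm (invL taG) = true := by decide +kernel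
theorem taG_inv : mulL taG (invL taG) = idL := by decide +kernel
theorem taG_conj_mem : mulL (mulL taG tA) (invL taG) ∈ taQ := by decide +kernel
theorem taG_conj_ne : mulL (mulL taG tA) (invL taG) ≠ tA := by decide +kernel

theorem conj_taG : perm taG * perm tA * (perm taG)⁻¹ = perm (mulL (mulL taG tA) (invL taG)) := by
  rw [perm_mulL (isPerm_mulL taG_perm tA_perm) taG_inv_perm, perm_mulL taG_perm tA_perm,
    perm_inv_of_mul taG_perm taG_inv_perm taG_inv]

theorem exists_conj_Q : ∃ g ∈ M24, g * perm tA * g⁻¹ ∈ Q0 ∧ g * perm tA * g⁻¹ ≠ perm tA := by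
  refine ⟨perm taG, perm_mem_M24 taG_perm taG_aut, ?_, ?_⟩
  · rw [conj_taG]
    exact ⟨_, taG_conj_mem, rfl⟩
  · rw [conj_taG]
    intro h
    have h1 := perm_inj (okL_perm taQ_ok taG_conj_mem) tA_perm h
    exact taG_conj_ne h1

theorem QK_chk : taK.all (fun k => !(taQ.contains k) || (k == idL)) = true := by decide +kernel

theorem Q0_inf_K0 : Q0 ⊓ K0 = ⊥ := by
  rw [eq_bot_iff]
  rintro _ ⟨⟨q, hq, e⟩, ⟨k, hk, rfl⟩⟩
  rw [Subgroup.mem_bot]
  have h1 := perm_inj (okL_perm taK_ok hk) (okL_perm taQ_ok hq) e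
  have h2 := List.all_eq_true.mp QK_chk k hk
  have h3 : taQ.contains k = true := by
    rw [h1]
    simpa only [List.contains_iff_mem] using hq
  rw [h3] at h2
  simp only [Bool.not_true, Bool.false_or] at h2
  rw [beq_eq h2, perm_idL]

end Cfsg.Agent.Lib.M24X.TA
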